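import Mathlib.GroupTheory.Sylow
import Mathlib.Algebra.Group.Subgroup.Pointwise
import Cfsg.Agent.H30.Permute

set_option autoImplicit false

/-! Kegel's lemma on permuting subgroups. -/

namespace Cfsg.Agent.H30

open Pointwise

variable {G : Type*} [Group G]

theorem permute_sup {H K X : Subgroup G}
    (h1 : (H : Set G) * (X : Set G) = (X : Set G) * (H : Set G))
    (h2 : (K : Set G) * (X : Set G) = (X : Set G) * (K : Set G)) :
    ((H ⊔ K : Subgroup G) : Set G) * (X : Set G) = (X : Set G) * ((H ⊔ K : Subgroup G) : Set G) := by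
  set L := H ⊔ K with hL
  -- the stabilizer of `X * L` contains `H` and `K`
  have key : ∀ M : Subgroup G, M ≤ L → (M : Set G) * (X : Set G) = (X : Set G) * (M : Set G) →
      M ≤ MulAction.stabilizer G ((X : Set G) * (L : Set G)) := by
    intro M hM hMX m hm
    have hsub : ∀ m ∈ M, m • ((X : Set G) * (L : Set G)) ⊆ (X : Set G) * (L : Set G) := by
      rintro m hm _ ⟨_, ⟨x, hx, l, hl, rfl⟩, rfl⟩
      have : m * x ∈ (X : Set G) * (M : Set G) := by rw [← hMX]; exact ⟨m, hm, x, hx, rfl⟩
      obtain ⟨x', hx', m', hm', h⟩ := this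
      have h' : x' * m' = m * x := h
      refine ⟨x', hx', m' * l, L.mul_mem (hM hm') hl, ?_⟩
      show x' * (m' * l) = m * (x * l)
      rw [← mul_assoc, h', mul_assoc]
    rw [MulAction.mem_stabilizer_iff]
    apply Set.Subset.antisymm (hsub m hm)
    have h3 := hsub m⁻¹ (M.inv_mem hm)
    exact Set.subset_smul_set_iff.2 h3
  have hstab : L ≤ MulAction.stabilizer G ((X : Set G) * (L : Set G)) :=
    sup_le (key H le_sup_left h1) (key K le_sup_right h2)
  have hsub : (L : Set G) * (X : Set G) ⊆ (X : Set G) * (L : Set G) := by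
    rintro _ ⟨l, hl, x, hx, rfl⟩
    have h3 := MulAction.mem_stabilizer_iff.1 (hstab hl)
    have h4 : l • x ∈ l • ((X : Set G) * (L : Set G)) :=
      Set.smul_mem_smul_set ⟨x, hx, 1, L.one_mem, by simp⟩
    rw [h3] at h4
    exact h4
  apply Set.Subset.antisymm hsub
  have h5 : ((X : Set G) * (L : Set G))⁻¹ ⊆ ((L : Set G) * (X : Set G))⁻¹ := by
    rw [mul_inv_rev, mul_inv_rev, inv_coe_set, inv_coe_set]
    exact hsub
  exact Set.inv_subset_inv.1 h5

theorem smul_coe_mul (g : G) (H K : Subgroup G) :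
    (MulAut.conj g • ((H : Set G) * (K : Set G)) : Set G) =
      ((MulAut.conj g • H : Subgroup G) : Set G) * ((MulAut.conj g • K : Subgroup G) : Set G) := by
  rw [Subgroup.coe_pointwise_smul, Subgroup.coe_pointwise_smul]
  ext x
  constructor
  · rintro ⟨_, ⟨a, ha, b, hb, rfl⟩, rfl⟩
    exact ⟨MulAut.conj g • a, ⟨a, ha, rfl⟩, MulAut.conj g • b, ⟨b, hb, rfl⟩, by simp [mul_assoc]⟩
  · rintro ⟨_, ⟨a, ha, rfl⟩, _, ⟨b, hb, rfl⟩, rfl⟩
    exact ⟨a * b, ⟨a, ha, b, hb, rfl⟩, by simp [mul_assoc]⟩

/-- Kegel's lemma. -/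
theorem kegel [Finite G] (B : Subgroup G) (n : ℕ) : ∀ A : Subgroup G,
    Nat.card G - Nat.card ↥A ≤ n →
    (∀ x : G, ∃ S : Subgroup G, S ≠ ⊤ ∧ (S : Set G) = (A : Set G) * ((MulAut.conj x • B : Subgroup G) : Set G)) →
    ∃ N : Subgroup G, N.Normal ∧ N ≠ ⊤ ∧ (A ≤ N ∨ B ≤ N) := by
  induction n with
  | zero =>
    intro A hn h
    exfalso
    obtain ⟨S, hS, hSA⟩ := h 1
    apply hS
    have hA : A = ⊤ := Subgroup.eq_top_of_le_card A (by omega)
    exact top_le_iff.1 (hA ▸ le_left_of_coe_eq hSA)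
  | succ n ih =>
    intro A hn h
    by_cases hnorm : ∀ x : G, MulAut.conj x • B ≤ Subgroup.normalizer (A : Set G)
    · by_cases hN : Subgroup.normalClosure (B : Set G) = ⊤
      · have hA : Subgroup.normalizer (A : Set G) = ⊤ := by
          rw [← top_le_iff, ← hN, Subgroup.normalClosure, Subgroup.closure_le]
          intro y hy
          rw [Group.mem_conjugatesOfSet_iff] at hy
          obtain ⟨b, hb, hby⟩ := hy
          rw [isConj_iff] at hby
          obtain ⟨x, rfl⟩ := hby
          exact hnorm x ⟨b, hb, rfl⟩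
        rw [Subgroup.normalizer_eq_top_iff] at hA
        obtain ⟨S, hS, hSA⟩ := h 1
        refine ⟨A, hA, ?_, Or.inl le_rfl⟩
        rintro rfl
        exact hS (top_le_iff.1 (le_left_of_coe_eq hSA))
      · exact ⟨_, Subgroup.normalClosure_normal, hN, Or.inr Subgroup.le_normalClosure⟩
    · push Not at hnorm
      obtain ⟨x, hx⟩ := hnorm
      obtain ⟨b, hbB, hbA⟩ := SetLike.not_le_iff_exists.1 hx
      set Ab : Subgroup G := MulAut.conj b • A with hAb
      set A' := A ⊔ Ab with hA'
      have hlt : A < A' := by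
        refine lt_of_le_of_ne le_sup_left ?_
        intro hEq
        apply hbA
        have h1 : Ab ≤ A := hEq ▸ le_sup_right
        have hcard : Nat.card ↥Ab = Nat.card ↥A := by
          rw [hAb]
          exact Nat.card_congr (Subgroup.equivSMul (MulAut.conj b) A).symm.toEquiv
        have h2 : Ab = A := Subgroup.eq_of_le_of_card_ge h1 hcard.ge
        rw [Subgroup.mem_normalizer_iff_map_conj_eq]
        exact h2
      have hcardlt : Nat.card ↥A < Nat.card ↥A' := by
        refine lt_of_le_of_ne (Subgroup.card_le_of_le hlt.le) ?_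
        intro hc
        exact hlt.ne (Subgroup.eq_of_le_of_card_ge hlt.le hc.ge)
      have hcle : Nat.card ↥A' ≤ Nat.card G := Subgroup.card_le_card_group _
      obtain ⟨Sx, hSx, hSxA⟩ := h x
      have hbSx : b ∈ Sx := le_right_of_coe_eq hSxA hbB
      have hASx : A ≤ Sx := le_left_of_coe_eq hSxA
      have hA'Sx : A' ≤ Sx := by
        refine sup_le hASx ?_
        rintro _ ⟨a, ha, rfl⟩
        exact Sx.mul_mem (Sx.mul_mem hbSx (hASx ha)) (Sx.inv_mem hbSx)
      obtain ⟨N, hN, hNt, hor⟩ := ih A' (by omega) (by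
        intro y
        obtain ⟨S1, -, hS1⟩ := h y
        obtain ⟨S2, -, hS2⟩ := h (b⁻¹ * y)
        have p1 := permute_of_coe_eq hS1
        have p2 : ((Ab : Subgroup G) : Set G) * ((MulAut.conj y • B : Subgroup G) : Set G) =
            ((MulAut.conj y • B : Subgroup G) : Set G) * ((Ab : Subgroup G) : Set G) := by
          have p3 := permute_of_coe_eq hS2
          have p4 := congrArg (fun s : Set G => MulAut.conj b • s) p3
          simp only [smul_coe_mul, ← mul_smul, ← map_mul, mul_inv_cancel_left] at p4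
          exact p4
        have p := permute_sup p1 p2
        refine ⟨mulSubgroup A' (MulAut.conj y • B) p, ?_, rfl⟩
        intro htop
        apply hSx
        rw [← top_le_iff]
        have hall : ∀ g : G, ∃ a ∈ A', ∃ c ∈ MulAut.conj y • B, a * c = g := by
          intro g
          have : g ∈ mulSubgroup A' (MulAut.conj y • B) p := htop ▸ Subgroup.mem_top g
          exact this
        -- conj x • B = conj a • conj y • B
        obtain ⟨a, ha, β, hβ, haβ⟩ := hall (x * y⁻¹)
        intro g _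
        obtain ⟨a', ha', β', hβ', hg⟩ := hall (g * a)
        have hg' : g = (a' * a⁻¹) * (a * β' * a⁻¹) := by
          calc g = (g * a) * a⁻¹ := by group
            _ = (a' * β') * a⁻¹ := by rw [hg]
            _ = _ := by group
        rw [hg']
        apply Sx.mul_mem (hA'Sx (A'.mul_mem ha' (A'.inv_mem ha)))
        apply le_right_of_coe_eq hSxA
        obtain ⟨c, hc, hcβ⟩ := hβ
        obtain ⟨c', hc', hcβ'⟩ := hβ'
        have e1 : y * c * y⁻¹ = β := hcβ
        have e2 : y * c' * y⁻¹ = β' := hcβ'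
        -- a = x y⁻¹ β⁻¹
        have e3 : a = x * y⁻¹ * β⁻¹ := by rw [← haβ]; group
        refine ⟨c⁻¹ * c' * c, B.mul_mem (B.mul_mem (B.inv_mem hc) hc') hc, ?_⟩
        show x * (c⁻¹ * c' * c) * x⁻¹ = a * β' * a⁻¹
        rw [e3, ← e1, ← e2]
        group)
      refine ⟨N, hN, hNt, ?_⟩
      rcases hor with h1 | h1
      · exact Or.inl (hlt.le.trans h1)
      · exact Or.inr h1

end Cfsg.Agent.H30
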