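import Cfsg.Agent.H71.MtRel

/-! # S4351, piece P7 (helper30): extensions of natural modules have exponent two -/

set_option autoImplicit false
set_option linter.unusedSectionVars false

namespace Cfsg.Agent.H30.MtP7

open Cfsg.Agent.H71.Mt

universe v

/-! ### field lemma -/

theorem sum_inv {F : Type*} [Field F] [Fintype F] : ∑ x : F, x * x⁻¹ = -1 := by
  classical
  have h1 : ∀ x : F, x * x⁻¹ = 1 - (if x = 0 then 1 else 0) := by
    intro x
    by_cases hx : x = 0
    · simp [hx]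
    · simp [hx]
  rw [Finset.sum_congr rfl fun x _ => h1 x, Finset.sum_sub_distrib]
  simp

theorem sum_scale {F : Type*} [Field F] [Fintype F] (f : F → F) {c : F} (hc : c ≠ 0) :
    ∑ x : F, f (c * x) * x⁻¹ = c * ∑ y : F, f y * y⁻¹ := by
  rw [Finset.mul_sum]
  refine Fintype.sum_equiv (Equiv.mulLeft₀ c hc) _ _ fun x => ?_
  show f (c * x) * x⁻¹ = c * (f (c * x) * (c * x)⁻¹)
  rw [mul_inv]
  have : c * c⁻¹ = 1 := mul_inv_cancel₀ hc
  calc f (c * x) * x⁻¹ = (c * c⁻¹) * (f (c * x) * x⁻¹) := by rw [this, one_mul]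
    _ = _ := by ring

theorem field_lemma {F : Type*} [Field F] [Fintype F] [CharP F 2] (hq : 8 ≤ Fintype.card F) (θ : F ≃+* F)
    (φ : F) (H om : F → F → F) (h : F → F) (hH : ∀ t t' x, H (t + t') x = H t x + H t' x)
    (hom : ∀ t t' x, om (t + t') x = om t x + om t' x)
    (heq : ∀ t x, φ * (t * x) + H t (t * x) + t * h (θ t * x) + om t x * t = 0) : φ = 0 := by
  classical
  obtain ⟨g, hg⟩ : ∃ g : F → F, g = fun t => (∑ y : F, H t y * y⁻¹) + θ t * (∑ y : F, h y * y⁻¹)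
    + ∑ y : F, om t y * y⁻¹ := ⟨_, rfl⟩
  have gadd : ∀ t t', g (t + t') = g t + g t' := by
    intro t t'
    rw [hg]
    simp only [hH, hom, map_add, add_mul, Finset.sum_add_distrib]
    ring
  have gφ : ∀ t, t ≠ 0 → g t = φ := by
    intro t ht
    have h1 : ∑ x : F, (φ * (t * x) + H t (t * x) + t * h (θ t * x) + om t x * t) * x⁻¹ = 0 := by
      refine Finset.sum_eq_zero fun x _ => ?_
      rw [heq, zero_mul]
    have e1 : ∑ x : F, φ * (t * x) * x⁻¹ = φ * t := by
      have : ∀ x : F, φ * (t * x) * x⁻¹ = φ * t * (x * x⁻¹) := fun x => by ring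
      rw [Finset.sum_congr rfl fun x _ => this x, ← Finset.mul_sum, sum_inv]
      rw [CharTwo.neg_eq, mul_one]
    have e2 : ∑ x : F, H t (t * x) * x⁻¹ = t * ∑ y : F, H t y * y⁻¹ := sum_scale (H t) ht
    have e3 : ∑ x : F, t * h (θ t * x) * x⁻¹ = t * (θ t * ∑ y : F, h y * y⁻¹) := by
      rw [← sum_scale h ((map_ne_zero θ).2 ht), Finset.mul_sum]
      refine Finset.sum_congr rfl fun x _ => ?_
      ring
    have e4 : ∑ x : F, om t x * t * x⁻¹ = t * ∑ y : F, om t y * y⁻¹ := by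
      rw [Finset.mul_sum]
      refine Finset.sum_congr rfl fun x _ => ?_
      ring
    have h2 : ∑ x : F, (φ * (t * x) + H t (t * x) + t * h (θ t * x) + om t x * t) * x⁻¹
        = t * (φ + g t) := by
      simp only [add_mul, Finset.sum_add_distrib]
      rw [e1, e2, e3, e4, hg]
      ring
    rw [h2] at h1
    rcases mul_eq_zero.1 h1 with h3 | h3
    · exact absurd h3 ht
    · exact (CharTwo.add_eq_zero.1 h3).symm
  obtain ⟨t, ht0, ht1⟩ : ∃ t : F, t ≠ 0 ∧ t ≠ 1 := by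
    by_contra hcon
    push_neg at hcon
    have hsub : (Finset.univ : Finset F) ⊆ {0, 1} := by
      intro x _
      by_cases hx : x = 0
      · simp [hx]
      · simp [hcon x hx]
    have := Finset.card_le_card hsub
    have h3 : ({0, 1} : Finset F).card ≤ 2 := Finset.card_le_two
    rw [Finset.card_univ] at this
    omega
  have h5 : t + 1 ≠ 0 := by
    intro h6
    exact ht1 (CharTwo.add_eq_zero.1 h6)
  have h6 := gadd t 1
  rw [gφ _ h5, gφ _ ht0, gφ _ one_ne_zero, CharTwo.add_self_eq_zero] at h6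
  exact h6

/-! ### sections -/

theorem section2 {A B : Type*} [AddCommGroup A] [AddCommGroup B] (f : A →+ B) (hf : Function.Surjective f)
    (N : AddSubgroup A) (hN : ∀ a, a + a ∈ N) (hNf : ∀ a ∈ N, f a = 0) :
    ∃ p : B → A, (∀ x, f (p x) = x) ∧ ∀ x y, p (x + y) - (p x + p y) ∈ N := by
  classical
  haveI : Fact (Nat.Prime 2) := ⟨Nat.prime_two⟩
  have hV : ∀ v : A ⧸ N, 2 • v = 0 := by
    intro v
    induction v using QuotientAddGroup.induction_on with
    | H a =>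
      rw [two_nsmul, ← QuotientAddGroup.mk_add]
      exact (QuotientAddGroup.eq_zero_iff _).2 (hN a)
  have hB : ∀ v : B, 2 • v = 0 := by
    intro v
    obtain ⟨a, rfl⟩ := hf v
    rw [two_nsmul, ← map_add]
    exact hNf _ (hN a)
  letI : Module (ZMod 2) (A ⧸ N) := AddCommGroup.zmodModule hV
  letI : Module (ZMod 2) B := AddCommGroup.zmodModule hB
  let f' : (A ⧸ N) →+ B := QuotientAddGroup.lift N f hNf
  have hf' : Function.Surjective f' := by
    intro x
    obtain ⟨a, rfl⟩ := hf x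
    exact ⟨(a : A ⧸ N), rfl⟩
  obtain ⟨g, hg⟩ := LinearMap.exists_rightInverse_of_surjective (f'.toZModLinearMap 2)
    (LinearMap.range_eq_top.2 hf')
  have hout : ∀ v : A ⧸ N, ∃ a : A, (a : A ⧸ N) = v := fun v => QuotientAddGroup.mk_surjective v
  choose o ho using hout
  refine ⟨fun x => o (g x), fun x => ?_, fun x y => ?_⟩
  · have h1 : f' (g x) = x := by
      have := LinearMap.congr_fun hg x
      exact this
    rw [← ho (g x)] at h1
    exact h1
  · rw [← QuotientAddGroup.eq_zero_iff]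
    rw [QuotientAddGroup.mk_sub, QuotientAddGroup.mk_add, ho, ho, ho, map_add, sub_self]

theorem lift_sec {F R L W : Type*} [Field F] [AddCommGroup R] [AddCommGroup L] [AddCommGroup W] [Module F L]
    [Module F W] (i : W →+ R) (π : R →+ L) (hπ : Function.Surjective π) (hπi : ∀ y, π (i y) = 0)
    (c : W →ₗ[F] F) (l : L) (hl : ∀ x : F, x • l = 0 → x = 0)
    (hd : ∀ r : R, ∀ x : F, π r = x • l → ∃ y : W, c y = 0 ∧ r + r = i y) :
    ∃ p : F → R, (∀ x, π (p x) = x • l) ∧ ∀ x y, ∃ u : W, c u = 0 ∧ p (x + y) = p x + p y + i u := by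
  let A : AddSubgroup (R × F) :=
    { carrier := {z | π z.1 = z.2 • l}
      add_mem' := by
        intro z z' hz hz'
        show π (z.1 + z'.1) = (z.2 + z'.2) • l
        rw [map_add, add_smul]
        exact congrArg₂ _ hz hz'
      zero_mem' := by
        show π (0 : R) = (0 : F) • l
        rw [map_zero, zero_smul]
      neg_mem' := by
        intro z hz
        show π (-z.1) = (-z.2) • l
        rw [map_neg, neg_smul]
        exact congrArg _ hz }
  let N : AddSubgroup A :=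
    { carrier := {z | ∃ y : W, c y = 0 ∧ z.1.1 = i y}
      add_mem' := by
        rintro z z' ⟨y, hy, hz⟩ ⟨y', hy', hz'⟩
        refine ⟨y + y', by rw [map_add, hy, hy', add_zero], ?_⟩
        show z.1.1 + z'.1.1 = i (y + y')
        rw [hz, hz', map_add]
      zero_mem' := ⟨0, by rw [map_zero], by rw [map_zero]; rfl⟩
      neg_mem' := by
        rintro z ⟨y, hy, hz⟩
        refine ⟨-y, by rw [map_neg, hy, neg_zero], ?_⟩
        show -z.1.1 = i (-y)
        rw [hz, map_neg] }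
  let f : A →+ F := (AddMonoidHom.snd R F).comp A.subtype
  have hfs : Function.Surjective f := by
    intro x
    obtain ⟨r, hr⟩ := hπ (x • l)
    exact ⟨⟨(r, x), hr⟩, rfl⟩
  obtain ⟨p, hp1, hp2⟩ := section2 f hfs N (by
      intro z
      obtain ⟨y, hy, hz⟩ := hd z.1.1 z.1.2 z.2
      exact ⟨y, hy, hz⟩) (by
      rintro z ⟨y, hy, hz⟩
      have h1 : π z.1.1 = z.1.2 • l := z.2
      rw [hz, hπi] at h1
      exact hl _ h1.symm)
  refine ⟨fun x => (p x).1.1, fun x => ?_, fun x y => ?_⟩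
  · have h1 : π (p x).1.1 = (p x).1.2 • l := (p x).2
    have h2 : (p x).1.2 = x := hp1 x
    rw [h2] at h1
    exact h1
  · obtain ⟨u, hu, hz⟩ := hp2 x y
    refine ⟨u, hu, ?_⟩
    have h1 : (p (x + y)).1.1 - ((p x).1.1 + (p y).1.1) = i u := hz
    rw [← h1]; abel

/-! ### coordinates -/

theorem exists_coords {X : Type*} [Group X] {F : Type*} [Field F] {θ : F ≃+* F} {S E K : Subgroup X} {w : X}
    {a b κ : X → F} {τ : F ≃+* F} {V : Type*} [AddCommGroup V] [Module F V] {ρ : Representation F X V}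
    {v1 v2 v3 v4 : V} (N : Nat4 θ S E K w a b κ τ ρ v1 v2 v3 v4) :
    ∃ c1 c2 c3 c4 : V →ₗ[F] F, (∀ v, v = c1 v • v1 + c2 v • v2 + c3 v • v3 + c4 v • v4) ∧
      (c1 v1 = 1 ∧ c1 v2 = 0 ∧ c1 v3 = 0 ∧ c1 v4 = 0) ∧ (c2 v1 = 0 ∧ c2 v2 = 1 ∧ c2 v3 = 0 ∧ c2 v4 = 0) ∧
      (c3 v1 = 0 ∧ c3 v2 = 0 ∧ c3 v3 = 1 ∧ c3 v4 = 0) ∧ (c4 v1 = 0 ∧ c4 v2 = 0 ∧ c4 v3 = 0 ∧ c4 v4 = 1) := by
  choose f1 f2 f3 f4 hf using N.span
  have uniq : ∀ (v : V) (x1 x2 x3 x4 : F), v = x1 • v1 + x2 • v2 + x3 • v3 + x4 • v4 →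
      f1 v = x1 ∧ f2 v = x2 ∧ f3 v = x3 ∧ f4 v = x4 := by
    intro v x1 x2 x3 x4 h
    have h1 : (f1 v - x1) • v1 + (f2 v - x2) • v2 + (f3 v - x3) • v3 + (f4 v - x4) • v4 = 0 := by
      have h2 := hf v
      have h3 : (f1 v • v1 + f2 v • v2 + f3 v • v3 + f4 v • v4) - (x1 • v1 + x2 • v2 + x3 • v3 + x4 • v4) = 0 := by
        rw [← h2, ← h, sub_self]
      rw [← h3]
      module
    obtain ⟨e1, e2, e3, e4⟩ := N.indep _ _ _ _ h1
    exact ⟨sub_eq_zero.1 e1, sub_eq_zero.1 e2, sub_eq_zero.1 e3, sub_eq_zero.1 e4⟩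
  have hadd : ∀ u v : V, f1 (u + v) = f1 u + f1 v ∧ f2 (u + v) = f2 u + f2 v ∧ f3 (u + v) = f3 u + f3 v ∧
      f4 (u + v) = f4 u + f4 v := by
    intro u v
    apply uniq
    conv_lhs => rw [hf u, hf v]
    module
  have hsm : ∀ (c : F) (v : V), f1 (c • v) = c * f1 v ∧ f2 (c • v) = c * f2 v ∧ f3 (c • v) = c * f3 v ∧
      f4 (c • v) = c * f4 v := by
    intro c v
    apply uniq
    conv_lhs => rw [hf v]
    module
  have u1 := uniq v1 1 0 0 0 (by module)
  have u2 := uniq v2 0 1 0 0 (by module)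
  have u3 := uniq v3 0 0 1 0 (by module)
  have u4 := uniq v4 0 0 0 1 (by module)
  refine ⟨⟨⟨f1, fun u v => (hadd u v).1⟩, fun c v => (hsm c v).1⟩,
    ⟨⟨f2, fun u v => (hadd u v).2.1⟩, fun c v => (hsm c v).2.1⟩,
    ⟨⟨f3, fun u v => (hadd u v).2.2.1⟩, fun c v => (hsm c v).2.2.1⟩,
    ⟨⟨f4, fun u v => (hadd u v).2.2.2⟩, fun c v => (hsm c v).2.2.2⟩, hf, ?_, ?_, ?_, ?_⟩
  · exact ⟨u1.1, u2.1, u3.1, u4.1⟩
  · exact ⟨u1.2.1, u2.2.1, u3.2.1, u4.2.1⟩
  · exact ⟨u1.2.2.1, u2.2.2.1, u3.2.2.1, u4.2.2.1⟩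
  · exact ⟨u1.2.2.2, u2.2.2.2, u3.2.2.2, u4.2.2.2⟩

/-! ### the theorem -/

section main

variable {X : Type*} [Group X] [Finite X] {F : Type} [Field F] [Fintype F] {θ : F ≃+* F} {S E K : Subgroup X}
  {w s0 : X} {a b κ : X → F}

/-- [P7] -/
theorem exp_two (D : SzD θ S E K w s0 a b κ) {R L W : Type v} [AddCommGroup R] [Finite R] [AddCommGroup L] [Finite L]
    [AddCommGroup W] [Finite W] [Module F L] [Module F W]
    (ρR : X →* AddMonoid.End R) (ρL : Representation F X L) (ρW : Representation F X W)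
    {l1 l2 l3 l4 : L} {w1 w2 w3 w4 : W}
    (NL : Nat4 θ S E K w a b κ (RingEquiv.refl F) ρL l1 l2 l3 l4)
    (NW : Nat4 θ S E K w a b κ (RingEquiv.refl F) ρW w1 w2 w3 w4)
    (i : W →+ R) (π : R →+ L) (hi : Function.Injective i) (hπ : Function.Surjective π)
    (hex : ∀ r : R, π r = 0 ↔ ∃ y : W, i y = r)
    (hig : ∀ g y, ρR g (i y) = i (ρW g y)) (hπg : ∀ g r, π (ρR g r) = ρL g (π r)) :
    ∀ r : R, π r = l1 → r + r = 0 := by
  haveI := D.char
  obtain ⟨c1, c2, c3, c4, hc, ⟨c11, c12, c13, c14⟩, ⟨c21, c22, c23, c24⟩, ⟨c31, c32, c33, c34⟩,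
    ⟨c41, c42, c43, c44⟩⟩ := exists_coords NW
  have h2W : ∀ y : W, y + y = 0 := fun y => two_zero (F := F) y
  have h2L : ∀ y : L, y + y = 0 := fun y => two_zero (F := F) y
  have h2F : ∀ y : F, y + y = 0 := fun y => CharTwo.add_self_eq_zero y
  -- the doubling map
  have hδ0 : ∀ l : L, ∃ y : W, ∀ r, π r = l → i y = r + r := by
    intro l
    obtain ⟨r, hr⟩ := hπ l
    have h1 : π (r + r) = 0 := by rw [map_add, h2L]
    obtain ⟨y, hy⟩ := (hex _).1 h1
    refine ⟨y, fun r' hr' => ?_⟩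
    have h2 : π (r' - r) = 0 := by rw [map_sub, hr, hr', sub_self]
    obtain ⟨y', hy'⟩ := (hex _).1 h2
    have h3 : r' = r + i y' := by rw [hy']; abel
    have h4 : i y' + i y' = 0 := by rw [← map_add, h2W, map_zero]
    rw [hy, h3]
    calc r + r = r + r + (i y' + i y') := by rw [h4, add_zero]
      _ = r + i y' + (r + i y') := by abel
  choose δ hδ using hδ0
  have hδ' : ∀ r, i (δ (π r)) = r + r := fun r => hδ _ r rfl
  have δadd : ∀ l l', δ (l + l') = δ l + δ l' := by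
    intro l l'
    obtain ⟨r, rfl⟩ := hπ l
    obtain ⟨r', rfl⟩ := hπ l'
    apply hi
    rw [← map_add π, hδ', map_add i, hδ', hδ']
    abel
  have δeq : ∀ g l, δ (ρL g l) = ρW g (δ l) := by
    intro g l
    obtain ⟨r, rfl⟩ := hπ l
    apply hi
    rw [← hπg, hδ', ← hig, hδ', map_add]
  -- the action of E on W
  have hE : ∀ t ∈ E, ∀ y, ρW t y = y + ((c3 y * b t + c4 y * θ (b t)) • w1 + (c4 y * b t) • w2) := by
    intro t ht y
    have htS := D.ES ht
    have hat : a t = 0 := (D.a_zero t htS).2 ht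
    have e1 := NW.s1 t htS
    have e2 := NW.s2 t htS
    have e3 := NW.e3 t ht
    have e4 := NW.e4 t ht
    simp only [RingEquiv.refl_apply, hat, zero_smul, add_zero] at e1 e2 e3 e4
    conv_lhs => rw [hc y]
    rw [map_add, map_add, map_add, map_smul, map_smul, map_smul, map_smul, e1, e2, e3, e4]
    conv_rhs => rw [hc y]
    simp only [map_add, map_smul, smul_eq_mul, c11, c12, c13, c14, c21, c22, c23, c24, c31, c32, c33, c34,
      c41, c42, c43, c44]
    module
  have hE0 : ∀ t ∈ E, ∀ y, c3 y = 0 → c4 y = 0 → ρW t y = y := by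
    intro t ht y h3 h4
    rw [hE t ht y, h3, h4]
    simp
  have hfixE : ∀ t ∈ E, t ≠ 1 → ∀ y, ρW t y = y → c3 y = 0 ∧ c4 y = 0 := by
    intro t ht ht1 y hy
    have hb : b t ≠ 0 := fun h => ht1 ((D.b_zero t ht).1 h)
    have h1 := hE t ht y
    rw [hy] at h1
    have h2 : (c3 y * b t + c4 y * θ (b t)) • w1 + (c4 y * b t) • w2 = 0 := by
      have := h1.symm
      rwa [add_eq_left] at this
    have h3 := congrArg c2 h2
    have h4 := congrArg c1 h2
    simp only [map_add, map_smul, smul_eq_mul, c11, c12, c21, c22, mul_one, mul_zero, add_zero, zero_add,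
      map_zero] at h3 h4
    have h5 : c4 y = 0 := by
      rcases mul_eq_zero.1 h3 with h | h
      · exact h
      · exact absurd h hb
    rw [h5, zero_mul, add_zero] at h4
    refine ⟨?_, h5⟩
    rcases mul_eq_zero.1 h4 with h | h
    · exact h
    · exact absurd h hb
  -- an element of `S` with `a = 1`, an involution
  obtain ⟨s1, hs1, has1⟩ := D.a_surj 1
  have hs1i := D.b_surj
  choose e heE heb using hs1i
  have he1 : e 1 ≠ 1 := by
    intro h
    have h1 := heb 1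
    rw [(D.b_zero _ (heE 1)).2 h] at h1
    exact zero_ne_one h1
  have headd : ∀ t t', e (t + t') = e t * e t' := by
    intro t t'
    have h1 : b (e (t + t') * (e t * e t')) = 0 := by
      rw [D.b_mul _ (heE _) _ (E.mul_mem (heE _) (heE _)), D.b_mul _ (heE _) _ (heE _), heb, heb, heb, h2F]
    have h2 := (D.b_zero _ (E.mul_mem (heE _) (E.mul_mem (heE _) (heE _)))).1 h1
    have h3 := eq_inv_of_mul_eq_one_left h2
    have h4 : (e t * e t')⁻¹ = e t * e t' :=
      inv_eq_of_mul_eq_one_left (D.Esq _ (E.mul_mem (heE _) (heE _)))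
    rw [h3, h4]
  -- the action of `s1` on combinations of w1, w2
  have hs12 : ∀ y : W, c3 y = 0 → c4 y = 0 → ρW s1 y = y + c2 y • w1 := by
    intro y h3 h4
    have e1 := NW.s1 s1 hs1
    have e2 := NW.s2 s1 hs1
    simp only [RingEquiv.refl_apply, has1, one_smul] at e2
    have h5 : y = c1 y • w1 + c2 y • w2 := by
      conv_lhs => rw [hc y, h3, h4]
      module
    conv_lhs => rw [h5]
    rw [map_add, map_smul, map_smul, e1, e2]
    conv_rhs => rw [h5]
    simp only [map_add, map_smul, smul_eq_mul, c11, c12, c21, c22]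
    module
  have hfixS : ∀ y : W, (∀ s ∈ S, ρW s y = y) → c2 y = 0 ∧ c3 y = 0 ∧ c4 y = 0 := by
    intro y hy
    obtain ⟨h3, h4⟩ := hfixE (e 1) (heE 1) he1 y (hy _ (D.ES (heE 1)))
    refine ⟨?_, h3, h4⟩
    have h5 := hs12 y h3 h4
    rw [hy s1 hs1] at h5
    have h6 : c2 y • w1 = 0 := by
      have := h5.symm
      rwa [add_eq_left] at this
    have h7 := congrArg c1 h6
    simpa [c11] using h7
  -- step 1
  have hδ1 : ∀ x : F, c2 (δ (x • l1)) = 0 ∧ c3 (δ (x • l1)) = 0 ∧ c4 (δ (x • l1)) = 0 := by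
    intro x
    apply hfixS
    intro s hs
    rw [← δeq, map_smul, NL.s1 s hs]
  have hδ1' : ∀ x : F, δ (x • l1) = c1 (δ (x • l1)) • w1 := by
    intro x
    obtain ⟨h2, h3, h4⟩ := hδ1 x
    conv_lhs => rw [hc (δ (x • l1)), h2, h3, h4]
    module
  obtain ⟨φ, hφ⟩ : ∃ φ, φ = c1 (δ ((1 : F) • l1)) := ⟨_, rfl⟩
  have hφx : ∀ x : F, c1 (δ (x • l1)) = x * φ := by
    intro x
    by_cases hx : x = 0
    · have h0 : δ 0 = 0 := by
        have := δadd 0 0
        rw [add_zero] at this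
        exact left_eq_add.mp this
      rw [hx, zero_smul, h0, map_zero, zero_mul]
    · obtain ⟨z, hz⟩ := D.mulθ'_surj x
      have hz : z * θ.symm z = x := hz
      have hz0 : z ≠ 0 := by rintro rfl; rw [zero_mul] at hz; exact hx hz.symm
      obtain ⟨k, hk, hkz⟩ := D.κ_surj z hz0
      have h1 := NL.k1 k hk
      have h2 := NW.k1 k hk
      simp only [RingEquiv.refl_apply, hkz, hz] at h1 h2
      have h3 := δeq k ((1 : F) • l1)
      rw [map_smul, h1, one_smul, hδ1' 1, map_smul, h2, ← hφ] at h3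
      rw [h3, map_smul, map_smul, c11, smul_eq_mul, smul_eq_mul, mul_one, mul_comm]
  -- it is enough that φ = 0
  suffices hφ0 : φ = 0 by
    intro r hr
    have h1 := hδ' r
    rw [hr, ← one_smul F l1, hδ1' 1, ← hφ, hφ0, zero_smul, map_zero] at h1
    exact h1.symm
  -- step 2
  have hδ2 : ∀ x : F, c3 (δ (x • l2)) = 0 ∧ c4 (δ (x • l2)) = 0 := by
    intro x
    apply hfixE (e 1) (heE 1) he1
    have h1 := NL.s2 (e 1) (D.ES (heE 1))
    have hat : a (e 1) = 0 := (D.a_zero _ (D.ES (heE 1))).2 (heE 1)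
    simp only [RingEquiv.refl_apply, hat, zero_smul, add_zero] at h1
    rw [← δeq, map_smul, h1]
  have hδ2' : ∀ x : F, c2 (δ (x • l2)) = x * φ := by
    intro x
    obtain ⟨h3, h4⟩ := hδ2 x
    have h5 := hs12 _ h3 h4
    have h1 := NL.s2 s1 hs1
    simp only [RingEquiv.refl_apply, has1, one_smul] at h1
    rw [← δeq, map_smul, h1, smul_add, δadd, add_right_inj, hδ1' x, hφx] at h5
    have h6 := congrArg c1 h5
    simp only [map_smul, c11, smul_eq_mul, mul_one] at h6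
    exact h6.symm
  -- step 3
  have hT : ∀ t ∈ E, ∀ p : R, (∃ x1 x2 : F, π p = x1 • l1 + x2 • l2) →
      ∃ y : W, ρR t p = p + i y ∧ c3 y = 0 ∧ c4 y = 0 := by
    intro t ht p hp
    obtain ⟨x1, x2, hp⟩ := hp
    have htS := D.ES ht
    have hat : a t = 0 := (D.a_zero t htS).2 ht
    have e1 := NL.s1 t htS
    have e2 := NL.s2 t htS
    simp only [RingEquiv.refl_apply, hat, zero_smul, add_zero] at e1 e2
    have h1 : π (ρR t p - p) = 0 := by
      rw [map_sub, hπg, hp, map_add, map_smul, map_smul, e1, e2, sub_self]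
    obtain ⟨y, hy⟩ := (hex _).1 h1
    have h2 : ρR t p = p + i y := by rw [hy]; abel
    refine ⟨y, h2, ?_⟩
    by_cases ht1 : t = 1
    · have h3 : i y = 0 := by
        rw [ht1, map_one] at h2
        have h4 : p = p + i y := h2
        exact left_eq_add.mp h4
      have h4 : y = 0 := hi (by rw [h3, map_zero])
      rw [h4, map_zero, map_zero]
      exact ⟨rfl, rfl⟩
    · apply hfixE t ht ht1
      have h3 : ρR t (ρR t p) = p := by
        rw [← mul_apply, D.Esq t ht, map_one]; rfl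
      rw [h2, map_add, h2, hig] at h3
      have h4 : i (y + ρW t y) = 0 := by
        rw [map_add]
        have h5 : p + (i y + i (ρW t y)) = p := by rw [← add_assoc]; exact h3
        exact add_eq_left.mp h5
      have h5 : y + ρW t y = 0 := hi (by rw [h4, map_zero])
      have h6 : y + ρW t y + y = y := by rw [h5, zero_add]
      rw [add_comm y, add_assoc, h2W, add_zero] at h6
      exact h6
  choose! Y hY using hT
  have hYadd : ∀ t ∈ E, ∀ t' ∈ E, ∀ p : R, (∃ x1 x2 : F, π p = x1 • l1 + x2 • l2) →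
      Y (t * t') p = Y t p + Y t' p := by
    intro t ht t' ht' p hp
    apply hi
    have h1 := (hY _ (E.mul_mem ht ht') p hp).1
    obtain ⟨h2, -, -⟩ := hY _ ht p hp
    obtain ⟨h3, h3', h3''⟩ := hY _ ht' p hp
    rw [mul_apply, h3, map_add, h2, hig, hE0 t ht _ h3' h3''] at h1
    rw [map_add]
    have h4 : p + (i (Y t p) + i (Y t' p)) = p + i (Y (t * t') p) := by rw [← add_assoc]; exact h1
    exact (add_left_cancel h4).symm
  -- sections
  have hπi : ∀ y, π (i y) = 0 := fun y => (hex _).2 ⟨y, rfl⟩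
  have hl1 : ∀ x : F, x • l1 = 0 → x = 0 := by
    intro x hx
    exact (NL.indep x 0 0 0 (by rw [hx]; module)).1
  have hl2 : ∀ x : F, x • l2 = 0 → x = 0 := by
    intro x hx
    exact (NL.indep 0 x 0 0 (by rw [hx]; module)).2.1
  obtain ⟨p1, hp1, hp1'⟩ := lift_sec i π hπ hπi c4 l1 hl1 (fun r x hr =>
    ⟨δ (π r), by rw [hr]; exact (hδ1 x).2.2, (hδ' r).symm⟩)
  obtain ⟨p2, hp2, hp2'⟩ := lift_sec i π hπ hπi c4 l2 hl2 (fun r x hr =>
    ⟨δ (π r), by rw [hr]; exact (hδ2 x).2, (hδ' r).symm⟩)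
  have hP1 : ∀ x, ∃ x1 x2 : F, π (p1 x) = x1 • l1 + x2 • l2 := fun x => ⟨x, 0, by rw [hp1]; module⟩
  have hP2 : ∀ x, ∃ x1 x2 : F, π (p2 x) = x1 • l1 + x2 • l2 := fun x => ⟨0, x, by rw [hp2]; module⟩
  -- step (c)
  have hZ0 : ∀ x, ∃ z : W, ρR s1 (p1 x) = p1 x + i z := by
    intro x
    have h1 : π (ρR s1 (p1 x) - p1 x) = 0 := by
      rw [map_sub, hπg, hp1, map_smul, NL.s1 s1 hs1, sub_self]
    obtain ⟨y, hy⟩ := (hex _).1 h1
    exact ⟨y, by rw [hy]; abel⟩
  choose Z hZ using hZ0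
  have hZ4 : ∀ x, c4 (Z x) = 0 := by
    intro x
    have hss := D.Ssq s1 hs1
    obtain ⟨h1, h2, h3⟩ := hY _ hss (p1 x) (hP1 x)
    rw [mul_apply, hZ, map_add, hZ, hig] at h1
    have h4 : i (Z x + ρW s1 (Z x)) = i (Y (s1 * s1) (p1 x)) := by
      rw [map_add]
      apply add_left_cancel (a := p1 x)
      rw [← add_assoc]; exact h1
    have h5 := hi h4
    have h6 := congrArg c3 h5
    rw [h2] at h6
    obtain ⟨f3, e3⟩ := NW.s3 s1 hs1
    obtain ⟨f4, g4, e4⟩ := NW.s4 s1 hs1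
    have e1 := NW.s1 s1 hs1
    have e2 := NW.s2 s1 hs1
    simp only [RingEquiv.refl_apply, has1, map_one, one_smul] at e1 e2 e3 e4
    rw [hc (Z x)] at h6
    simp only [map_add, map_smul, e1, e2, e3, e4, smul_eq_mul, c31, c32, c33, c34, c11, c12, c13, c14, c21, c22,
      c23, c24, c41, c42, c43, c44, mul_zero, mul_one, zero_add, add_zero, smul_add] at h6
    rw [← add_assoc, h2F, zero_add] at h6
    exact h6
  have hd : ∀ t x, c2 (Y (e t) (p1 x)) = t * c3 (Z x) := by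
    intro t x
    obtain ⟨h1, h2, h3⟩ := hY _ (heE t) (p1 x) (hP1 x)
    have hcm : ρR (e t) (ρR s1 (p1 x)) = ρR s1 (ρR (e t) (p1 x)) := by
      rw [← mul_apply, ← mul_apply, D.Ecen _ (heE t) _ hs1]
    rw [hZ, h1, map_add, map_add, hig, hig, h1, hZ, hE (e t) (heE t) (Z x), hs12 _ h2 h3, hZ4, heb] at hcm
    simp only [zero_mul, add_zero, zero_smul, map_add] at hcm
    have h4 : i ((c3 (Z x) * t) • w1) = i (c2 (Y (e t) (p1 x)) • w1) := by
      have h5 : p1 x + i (Y (e t) (p1 x)) + (i (Z x) + i ((c3 (Z x) * t) • w1))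
          = p1 x + i (Y (e t) (p1 x)) + (i (Z x) + i (c2 (Y (e t) (p1 x)) • w1)) := by
        rw [hcm]; abel
      exact add_left_cancel (add_left_cancel h5)
    have h6 := congrArg c1 (hi h4)
    simp only [map_smul, c11, smul_eq_mul, mul_one] at h6
    rw [← h6, mul_comm]
  -- step (d)
  have hr4 : ∀ x : F, ∃ r : R, π r = x • l4 := fun x => hπ _
  choose r4 hr4 using hr4
  have hOm0 : ∀ t x, ∃ o : W, ρR (e t) (r4 x) = r4 x + p2 (t * x) + p1 (θ t * x) + i o := by
    intro t x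
    have h4 := NL.e4 (e t) (heE t)
    simp only [RingEquiv.refl_apply, heb] at h4
    have h1 : π (ρR (e t) (r4 x) - (r4 x + p2 (t * x) + p1 (θ t * x))) = 0 := by
      rw [map_sub, hπg, map_add, map_add, hp1, hp2, hr4, map_smul, h4]
      module
    obtain ⟨y, hy⟩ := (hex _).1 h1
    exact ⟨y, by rw [hy]; abel⟩
  choose Om hOm using hOm0
  have hTT : ∀ t t' x, ρR (e t) (ρR (e t') (r4 x)) = r4 x + (p2 (t * x) + p2 (t' * x)) +
      (p1 (θ t * x) + p1 (θ t' * x)) +
      i (Om t x + Om t' x + Y (e t) (p2 (t' * x)) + Y (e t) (p1 (θ t' * x)) +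
        ((c3 (Om t' x) * t + c4 (Om t' x) * θ t) • w1 + (c4 (Om t' x) * t) • w2)) := by
    intro t t' x
    have h1 := (hY _ (heE t) (p2 (t' * x)) (hP2 _)).1
    have h2 := (hY _ (heE t) (p1 (θ t' * x)) (hP1 _)).1
    rw [hOm t' x, map_add, map_add, map_add, hOm t x, h1, h2, hig, hE _ (heE t), heb]
    simp only [map_add]
    abel
  have hom : ∀ t t' x, c4 (Om (t + t') x) = c4 (Om t x) + c4 (Om t' x) := by
    intro t t' x
    have h1 := hTT t t' x
    rw [← mul_apply, ← headd, hOm] at h1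
    obtain ⟨u2, hu2, hu2'⟩ := hp2' (t * x) (t' * x)
    obtain ⟨u1, hu1, hu1'⟩ := hp1' (θ t * x) (θ t' * x)
    rw [add_mul, map_add θ, add_mul, hu2', hu1'] at h1
    have h3 : i (Om (t + t') x + u1 + u2) = i (Om t x + Om t' x + Y (e t) (p2 (t' * x)) + Y (e t) (p1 (θ t' * x)) +
        ((c3 (Om t' x) * t + c4 (Om t' x) * θ t) • w1 + (c4 (Om t' x) * t) • w2)) := by
      rw [map_add i, map_add i (Om (t + t') x)]
      apply add_left_cancel (a := r4 x + (p2 (t * x) + p2 (t' * x)) + (p1 (θ t * x) + p1 (θ t' * x)))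
      rw [← h1]
      abel
    have h4 := congrArg c4 (hi h3)
    obtain ⟨-, -, h5⟩ := hY _ (heE t) (p2 (t' * x)) (hP2 _)
    obtain ⟨-, -, h6⟩ := hY _ (heE t) (p1 (θ t' * x)) (hP1 _)
    simp only [map_add, map_smul, smul_eq_mul, hu1, hu2, h5, h6, c41, c42, mul_zero, add_zero] at h4
    exact h4
  -- step (e)
  have hkey : ∀ t x, φ * (t * x) + c2 (Y (e t) (p2 (t * x))) + t * c3 (Z (θ t * x)) + c4 (Om t x) * t = 0 := by
    intro t x
    have h1 := hTT t t x
    rw [← mul_apply, D.Esq _ (heE t), map_one] at h1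
    have h1 : r4 x = _ := h1
    have e2 : p2 (t * x) + p2 (t * x) = i (δ ((t * x) • l2)) := by rw [← hp2, hδ']
    have e1 : p1 (θ t * x) + p1 (θ t * x) = i (δ ((θ t * x) • l1)) := by rw [← hp1, hδ']
    rw [e2, e1] at h1
    have h3 : i (δ ((t * x) • l2) + δ ((θ t * x) • l1) + (Om t x + Om t x + Y (e t) (p2 (t * x)) +
        Y (e t) (p1 (θ t * x)) + ((c3 (Om t x) * t + c4 (Om t x) * θ t) • w1 + (c4 (Om t x) * t) • w2))) = 0 := by
      rw [map_add i, map_add i]
      apply add_left_cancel (a := r4 x)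
      rw [add_zero]
      conv_rhs => rw [h1]
      abel
    have h4 : δ ((t * x) • l2) + δ ((θ t * x) • l1) + (Om t x + Om t x + Y (e t) (p2 (t * x)) +
        Y (e t) (p1 (θ t * x)) + ((c3 (Om t x) * t + c4 (Om t x) * θ t) • w1 + (c4 (Om t x) * t) • w2)) = 0 :=
      hi (by rw [h3, map_zero])
    have h5 := congrArg c2 h4
    rw [h2W] at h5
    simp only [map_add, map_smul, smul_eq_mul, hδ2', (hδ1 _).1, hd, c21, c22, mul_zero, mul_one, add_zero,
      zero_add, map_zero] at h5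
    rw [← h5]
    ring
  exact field_lemma D.card θ φ (fun t x => c2 (Y (e t) (p2 x))) (fun t x => c4 (Om t x)) (fun x => c3 (Z x))
    (fun t t' x => by
      show c2 (Y (e (t + t')) (p2 x)) = _
      rw [headd, hYadd _ (heE t) _ (heE t') _ (hP2 x), map_add]) hom hkey

end main

end Cfsg.Agent.H30.MtP7
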